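import Mathlib.AlgebraicGeometry.ProjectiveSpectrum.Proper
import Groth.Agent.Ega3B.ProjAmple
import Groth.Agent.Ega2.AmpleGlobGen
import Groth.Agent.Ega2.H287.FinGenFree

/-!
# `Proj` of a graded ring whose irrelevant ideal is generated by finitely many elements of degree one

* `coveredBy_one`, `compactSpace`, `quasiSeparatedSpace`;
* `isAmple_twist_one`: `O(1)` is ample;
* `exists_globGen_twistBy`: `F(n)` is globally generated for large `n`;
* `exists_epi_freeMod_twistBy`: `F(n)` is a quotient of a finite free module for large `n`.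
-/

set_option autoImplicit false

universe u

open CategoryTheory CategoryTheory.Limits AlgebraicGeometry Opposite TopologicalSpace

namespace Groth.Agent.Ega2.H287.ProjSerre

open Groth.Agent.Ega3B.ProjAmple Groth.Agent.Ega2.TensHom

variable {R A : Type u} [CommRing R] [CommRing A] [Algebra R A] {𝒜 : ℕ → Submodule R A} [GradedAlgebra 𝒜]
  {s : Finset A}

theorem exists_notMem (hs : (HomogeneousIdeal.irrelevant 𝒜).toIdeal = Ideal.span (s : Set A))
    (x : ProjectiveSpectrum 𝒜) : ∃ f ∈ s, f ∉ x.asHomogeneousIdeal := by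
  by_contra hcon
  push Not at hcon
  apply x.not_irrelevant_le
  change (HomogeneousIdeal.irrelevant 𝒜).toIdeal ≤ x.asHomogeneousIdeal.toIdeal
  rw [hs, Ideal.span_le]
  exact hcon

theorem coveredBy_one (hs1 : ∀ f ∈ s, f ∈ 𝒜 1)
    (hs : (HomogeneousIdeal.irrelevant 𝒜).toIdeal = Ideal.span (s : Set A)) : CoveredBy 𝒜 1 := fun x => by
  obtain ⟨f, hf, hfx⟩ := exists_notMem hs x
  exact ⟨⟨f, hs1 f hf⟩, hfx⟩

theorem compactSpace (hs1 : ∀ f ∈ s, f ∈ 𝒜 1)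
    (hs : (HomogeneousIdeal.irrelevant 𝒜).toIdeal = Ideal.span (s : Set A)) : CompactSpace (Proj 𝒜) := by
  have h1 : (⋃ f ∈ s, (Proj.basicOpen 𝒜 f : Set (Proj 𝒜))) = Set.univ := by
    rw [Set.eq_univ_iff_forall]
    intro x
    obtain ⟨f, hf, hfx⟩ := exists_notMem hs x
    exact Set.mem_iUnion₂.mpr ⟨f, hf, hfx⟩
  rw [← isCompact_univ_iff, ← h1]
  exact s.isCompact_biUnion fun f hf => (Proj.isAffineOpen_basicOpen 𝒜 f (hs1 f hf) one_pos).isCompact

theorem quasiSeparatedSpace : QuasiSeparatedSpace (Proj 𝒜) := inferInstance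

/-- `O(1)` is ample. -/
theorem isAmple_twist_one (hs1 : ∀ f ∈ s, f ∈ 𝒜 1)
    (hs : (HomogeneousIdeal.irrelevant 𝒜).toIdeal = Ideal.span (s : Set A)) :
    CohB1.IsAmple (Twist.twist 𝒜 1) := by
  have := compactSpace hs1 hs
  exact isAmple_twist one_pos (coveredBy_one hs1 hs)

/-- `F(n) ≅ F ⊗ O(1)^{⊗ n}`. -/
theorem nonempty_twistBy_iso_tensorPow (hs1 : ∀ f ∈ s, f ∈ 𝒜 1)
    (hs : (HomogeneousIdeal.irrelevant 𝒜).toIdeal = Ideal.span (s : Set A)) (F : (Proj 𝒜).Modules) (n : ℕ) :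
    Nonempty (CohB1.tensorMod F (CohB1.tensorPow (Twist.twist 𝒜 1) n) ≅ Twist.twistBy 𝒜 F (n : ℤ)) := by
  obtain ⟨i⟩ := nonempty_tensorPow_iso (coveredBy_one hs1 hs) n
  obtain ⟨j⟩ := tensCongr (Iso.refl F) i
  refine ⟨j ≪≫ eqToIso ?_⟩
  unfold Twist.twistBy
  rw [Nat.cast_one, mul_one]

/-- `F(n)` is globally generated for large `n`. -/
theorem exists_globGen_twistBy (hs1 : ∀ f ∈ s, f ∈ 𝒜 1)
    (hs : (HomogeneousIdeal.irrelevant 𝒜).toIdeal = Ideal.span (s : Set A)) (F : (Proj 𝒜).Modules)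
    (hF : Coh.IsCoh F) :
    ∃ n₀ : ℕ, ∀ n : ℕ, n₀ ≤ n → Curv2.IsGloballyGenerated (Twist.twistBy 𝒜 F (n : ℤ)) := by
  obtain ⟨n₀, h⟩ := AmpleGlobGen.exists_globGen (isAmple_twist_one hs1 hs) hF
  refine ⟨n₀, fun n hn => ?_⟩
  obtain ⟨e⟩ := nonempty_twistBy_iso_tensorPow hs1 hs F n
  exact GlobGenCrit.isGloballyGenerated_of_iso e (h n hn)

/-- `F(n)` is a quotient of a finite free module for large `n`. -/
theorem exists_epi_freeMod_twistBy (hs1 : ∀ f ∈ s, f ∈ 𝒜 1)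
    (hs : (HomogeneousIdeal.irrelevant 𝒜).toIdeal = Ideal.span (s : Set A)) (F : (Proj 𝒜).Modules)
    (hF : Coh.IsCoh F) :
    ∃ n₀ : ℕ, ∀ n : ℕ, n₀ ≤ n →
      ∃ (k : ℕ) (p : FlatMod.freeMod (Proj 𝒜) k ⟶ Twist.twistBy 𝒜 F (n : ℤ)), Epi p := by
  have := compactSpace hs1 hs
  obtain ⟨n₀, h⟩ := exists_globGen_twistBy hs1 hs F hF
  refine ⟨n₀, fun n hn => FinGenFree.exists_epi_freeMod ?_ (h n hn)⟩
  exact GlobGenCrit.isCoh_tensor hF
    (isInvertible_twist_mul (coveredBy_one hs1 hs) n n (by rw [Nat.cast_one, mul_one]))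

end Groth.Agent.Ega2.H287.ProjSerre
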